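import Cfsg.Agent.SympWeil.SymOrbit
import Cfsg.Agent.Classical.CrossChar
import Cfsg.Agent.Classical.Symp.Simple

/-!
Nonlinear irreducible complex representations of `Sp_2n(q)`, `q` odd, have degree at least
`(q^n - 1)/2`: characters of the Siegel radical come in congruence orbits.
-/

set_option autoImplicit false

namespace CfsgLib.SympWeil

open Matrix

variable {F : Type*} [Field F] {n : ℕ}

private def symOf (v : Fin n × Fin n → F) : Matrix (Fin n) (Fin n) F :=
  (Matrix.of fun i j => v (i, j)) + (Matrix.of fun i j => v (i, j))ᵀ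

private theorem symOf_transpose (v : Fin n × Fin n → F) : (symOf v)ᵀ = symOf v := by
  ext i j; simp [symOf, add_comm]

private theorem symOf_add (u v : Fin n × Fin n → F) : symOf (u + v) = symOf u + symOf v := by
  ext i j; simp [symOf]; ring

private def siegelU (v : Fin n × Fin n → F) : symplecticGroup (Fin n) F :=
  ⟨fromBlocks 1 (symOf v) 0 1, by
    rw [SymplecticGroup.mem_iff]
    simp [J, fromBlocks_multiply, fromBlocks_transpose, symOf_transpose]⟩

private theorem siegelU_mul (u v : Fin n × Fin n → F) : siegelU (u + v) = siegelU u * siegelU v := by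
  apply Subtype.ext
  change fromBlocks 1 (symOf (u + v)) 0 1 = fromBlocks 1 (symOf u) 0 1 * fromBlocks 1 (symOf v) 0 1
  simp [fromBlocks_multiply, symOf_add, add_comm (symOf u)]

private theorem siegelU_zero : siegelU (0 : Fin n × Fin n → F) = 1 := by
  have := siegelU_mul (0 : Fin n × Fin n → F) 0
  rwa [add_zero, left_eq_mul] at this

private theorem siegelU_swap (v : Fin n × Fin n → F) : siegelU (fun p => v (p.2, p.1)) = siegelU v := by
  apply Subtype.ext
  change fromBlocks 1 (symOf fun p => v (p.2, p.1)) 0 1 = fromBlocks 1 (symOf v) 0 1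
  have : symOf (fun p : Fin n × Fin n => v (p.2, p.1)) = symOf v := by ext i j; simp [symOf, add_comm]
  rw [this]

private theorem siegelU_central (v : Fin n × Fin n → F)
    (h : siegelU v ∈ Subgroup.center (symplecticGroup (Fin n) F)) : symOf v = 0 := by
  have h1 := congrArg Subtype.val (Subgroup.mem_center_iff.mp h ⟨J (Fin n) F, SymplecticGroup.J_mem _ _⟩)
  change J (Fin n) F * fromBlocks 1 (symOf v) 0 1 = fromBlocks 1 (symOf v) 0 1 * J (Fin n) F at h1
  simp [J, fromBlocks_multiply, fromBlocks_inj] at h1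
  rcases h1 with ⟨h1, -⟩
  exact h1.symm

/-- Action of `B` on parameters. -/
private def congrParam (B : Matrix (Fin n) (Fin n) F) (v : Fin n × Fin n → F) : Fin n × Fin n → F :=
  fun p => (Bᵀ * (Matrix.of fun i j => v (i, j)) * B) p.1 p.2

private theorem symOf_congrParam (B : Matrix (Fin n) (Fin n) F) (v : Fin n × Fin n → F) :
    symOf (congrParam B v) = Bᵀ * symOf v * B := by
  have h : (Matrix.of fun i j => congrParam B v (i, j)) = Bᵀ * (Matrix.of fun i j => v (i, j)) * B := rfl
  simp only [symOf, h, Matrix.mul_add, Matrix.add_mul, Matrix.transpose_mul, Matrix.transpose_transpose,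
    Matrix.mul_assoc]

private noncomputable def levi (B : Matrix (Fin n) (Fin n) F) (hB : B.det ≠ 0) : symplecticGroup (Fin n) F :=
  ⟨fromBlocks (Bᵀ)⁻¹ 0 0 B, by
    have hu : IsUnit Bᵀ.det := by rw [det_transpose]; exact hB.isUnit
    have h2 : B * ((Bᵀ)⁻¹)ᵀ = 1 := by
      rw [transpose_nonsing_inv, transpose_transpose, mul_nonsing_inv _ hB.isUnit]
    rw [SymplecticGroup.mem_iff]
    simp [J, fromBlocks_multiply, fromBlocks_transpose, nonsing_inv_mul _ hu, h2]⟩

private theorem siegelU_levi (B : Matrix (Fin n) (Fin n) F) (hB : B.det ≠ 0) (v : Fin n × Fin n → F) :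
    siegelU v * levi B hB = levi B hB * siegelU (congrParam B v) := by
  have hu : IsUnit Bᵀ.det := by rw [det_transpose]; exact hB.isUnit
  apply Subtype.ext
  change fromBlocks 1 (symOf v) 0 1 * fromBlocks (Bᵀ)⁻¹ 0 0 B =
    fromBlocks (Bᵀ)⁻¹ 0 0 B * fromBlocks 1 (symOf (congrParam B v)) 0 1
  simp [fromBlocks_multiply, symOf_congrParam, ← Matrix.mul_assoc, nonsing_inv_mul _ hu]

private theorem dot_congrParam (B : Matrix (Fin n) (Fin n) F) (w v : Fin n × Fin n → F) :
    w ⬝ᵥ congrParam B v =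
      (fun p : Fin n × Fin n => (B * (Matrix.of fun i j => w (i, j)) * Bᵀ) p.1 p.2) ⬝ᵥ v := by
  have e : ∀ (w : Fin n × Fin n → F) (M : Matrix (Fin n) (Fin n) F),
      w ⬝ᵥ (fun p => M p.1 p.2) = ((Matrix.of fun i j => w (i, j))ᵀ * M).trace := by
    intro w M
    simp only [dotProduct, Matrix.trace, Matrix.diag, Matrix.mul_apply, Fintype.sum_prod_type,
      Matrix.transpose_apply, Matrix.of_apply]
    exact Finset.sum_comm
  refine (e w (Bᵀ * (Matrix.of fun i j => v (i, j)) * B)).trans ?_
  refine Eq.trans ?_ (e (fun p : Fin n × Fin n => (B * (Matrix.of fun i j => w (i, j)) * Bᵀ) p.1 p.2)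
    (Matrix.of fun i j => v (i, j))).symm
  change _ = ((B * (Matrix.of fun i j => w (i, j)) * Bᵀ)ᵀ * (Matrix.of fun i j => v (i, j))).trace
  rw [Matrix.transpose_mul, Matrix.transpose_mul, Matrix.transpose_transpose, ← Matrix.mul_assoc,
    Matrix.trace_mul_comm]
  simp only [Matrix.mul_assoc]

/-- The Landazuri-Seitz-Zalesskii bound for `Sp_2n(q)`, `q` odd. -/
theorem degree_bound [Fintype F] [DecidableEq F] (hn : 2 ≤ n) (hodd : Odd (Fintype.card F)) (k : ℕ)
    (ρ : Representation ℂ (symplecticGroup (Fin n) F) (Fin k → ℂ)) (hρ : ρ.IsIrreducible) (hk : 2 ≤ k) :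
    (Fintype.card F ^ n - 1) / 2 ≤ k := by
  classical
  have h2 : (2 : F) ≠ 0 := by
    refine Ring.two_ne_zero fun h2 => ?_
    have he := FiniteField.even_card_of_char_two h2
    rw [Nat.odd_iff] at hodd
    omega
  have hq3 : 3 ≤ Fintype.card F := by
    have := Fintype.one_lt_card (α := F)
    rw [Nat.odd_iff] at hodd
    omega
  have hperf : commutator (symplecticGroup (Fin n) F) = ⊤ :=
    CfsgLib.Classical.Symp.commutator_eq_top (by
      rcases (show n = 2 ∨ 3 ≤ n by omega) with h | h
      · exact Or.inr (Or.inl ⟨h, hq3⟩)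
      · exact Or.inl h)
  let ρ' : symplecticGroup (Fin n) F →* (Fin k → ℂ) →ₗ[ℂ] (Fin k → ℂ) := ρ
  have hker : ρ'.ker ≤ Subgroup.center (symplecticGroup (Fin n) F) := by
    refine (CfsgLib.Classical.Symp.le_center_or_eq_top hperf _).resolve_right fun htop => ?_
    have htriv : ∀ g, ρ g = 1 := fun g => MonoidHom.mem_ker.1 (htop ▸ Subgroup.mem_top g : g ∈ ρ'.ker)
    let e : Fin k → ℂ := Pi.single ⟨0, by omega⟩ 1
    let S : Subrepresentation ρ :=
      ⟨Submodule.span ℂ {e}, fun g v hv => by simpa [htriv g] using hv⟩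
    rcases @IsSimpleOrder.eq_bot_or_eq_top _ _ _ hρ S with h | h
    · have h' : Submodule.span ℂ {e} = ⊥ := congrArg Subrepresentation.toSubmodule h
      simp [e, Submodule.span_singleton_eq_bot] at h'
    · have h' : Submodule.span ℂ {e} = ⊤ := congrArg Subrepresentation.toSubmodule h
      have h1 := finrank_span_le_card (R := ℂ) ({e} : Set (Fin k → ℂ))
      rw [h'] at h1
      simp at h1
      omega
  have hL : ringChar ℂ ≠ ringChar F := by
    have hp : (ringChar F).Prime := CharP.char_is_prime F _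
    rw [ringChar.eq_zero]
    exact hp.ne_zero.symm
  obtain ⟨ψ, hψ⟩ := CfsgLib.CrossChar.exists_primitive_char (F := F) ℂ hL
  have hcard := CfsgLib.CrossChar.card_ne_zero (F := F) (L := ℂ) hL
  let Φ : symplecticGroup (Fin n) F →* Matrix (Fin k) (Fin k) ℂ :=
    (LinearMap.toMatrixAlgEquiv' : ((Fin k → ℂ) →ₗ[ℂ] (Fin k → ℂ)) ≃ₐ[ℂ] _).toAlgHom.toMonoidHom.comp ρ'
  let R : (Fin n × Fin n → F) → Matrix (Fin k) (Fin k) ℂ := fun v => Φ (siegelU v)
  have h0 : R 0 = 1 := by simp [R, siegelU_zero]
  have hadd : ∀ u v, R (u + v) = R u * R v := fun u v => by simp [R, siegelU_mul]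
  let i0 : Fin n := ⟨0, by omega⟩
  let v₀ : Fin n × Fin n → F := Pi.single (i0, i0) 1
  have hv₀ : R v₀ ≠ 1 := by
    intro h
    have hk' : siegelU v₀ ∈ ρ'.ker := by
      refine MonoidHom.mem_ker.2 ((LinearMap.toMatrixAlgEquiv' :
        ((Fin k → ℂ) →ₗ[ℂ] (Fin k → ℂ)) ≃ₐ[ℂ] _).injective ?_)
      rw [map_one]; exact h
    have := congrFun (congrFun (siegelU_central v₀ (hker hk')) i0) i0
    simp [symOf, v₀, ← two_mul, h2] at this
  obtain ⟨w, y, hy, hwv⟩ := CfsgLib.CrossChar.exists_isWeightVec ψ R hψ hcard h0 hadd v₀ hv₀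
  set W : Matrix (Fin n) (Fin n) F := Matrix.of fun i j => w (i, j) with hWdef
  have hW : Wᵀ = W := by
    ext i j
    change w (j, i) = w (i, j)
    by_contra hne
    obtain ⟨x, hx⟩ := hψ (w (i, j) - w (j, i)) (sub_ne_zero.2 (Ne.symm hne))
    refine hx ?_
    have h1 := hy.2 (Pi.single (i, j) x)
    have h3 : R (Pi.single (j, i) x) = R (Pi.single (i, j) x) := by
      have : (fun p : Fin n × Fin n => (Pi.single (i, j) x : Fin n × Fin n → F) (p.2, p.1)) =
          Pi.single (j, i) x := by
        funext p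
        obtain ⟨a, b⟩ := p
        simp only [Pi.single_apply, Prod.mk.injEq]
        congr 1
        exact propext and_comm
      simp only [R, ← this, siegelU_swap]
    have h4 := hy.2 (Pi.single (j, i) x)
    rw [h3, h1, dotProduct_single, dotProduct_single] at h4
    have h5 := smul_left_injective ℂ hy.1 h4
    rw [sub_mul, sub_eq_add_neg, ψ.map_add_eq_mul]
    rw [h5, ← ψ.map_add_eq_mul, add_neg_cancel, ψ.map_zero_eq_one]
  have hW0 : W ≠ 0 := by
    intro h0
    refine hwv ?_
    have : w = 0 := funext fun p => congrFun (congrFun h0 p.1) p.2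
    simp [this]
  let flat : Matrix (Fin n) (Fin n) F → (Fin n × Fin n → F) := fun M p => M p.1 p.2
  have hflat : Function.Injective flat := fun M N h => Matrix.ext fun i j => congrFun h (i, j)
  have hall : ∀ w' ∈ (congrOrbit W).image flat, ∃ y', CfsgLib.CrossChar.IsWeightVec ψ R w' y' := by
    intro w' hw'
    obtain ⟨M, hM, rfl⟩ := Finset.mem_image.1 hw'
    obtain ⟨B, hB, rfl⟩ := mem_congrOrbit.1 hM
    refine ⟨_, CfsgLib.CrossChar.transport_isWeightVec ψ R (Φ (levi B hB)) (Φ (levi B hB)⁻¹) ?_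
      (congrParam B) (fun v => ?_) (fun v => ?_) hy⟩
    · rw [← map_mul, inv_mul_cancel, map_one]
    · simp only [R, ← map_mul, siegelU_levi B hB v]
    · exact dot_congrParam B w v
  have h := CfsgLib.CrossChar.card_weights_le ψ R hψ hcard _ hall
  rw [Finset.card_image_of_injective _ hflat] at h
  have := card_congrOrbit h2 n W hW hW0
  omega

end CfsgLib.SympWeil
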